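import Mathlib

/-!
# Field automorphisms of two-power order of finite fields of even square order (helper122, S4547 task QE12)
-/

set_option autoImplicit false

namespace Cfsg.Agent.H122.K547

variable {F : Type*} [Field F]

/-- a cube root of unity -/
theorem cube_cases {w : F} (h1 : w ≠ 1) (h3 : w ^ 3 = 1) (θ : F ≃+* F) : θ w = w ∨ θ w = w⁻¹ := by
  have h0 : w ≠ 0 := by
    rintro rfl
    norm_num at h3
  have e1 : w ^ 2 + w + 1 = 0 := by
    have : (w - 1) * (w ^ 2 + w + 1) = 0 := by linear_combination h3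
    exact (mul_eq_zero.1 this).resolve_left (sub_ne_zero.2 h1)
  have e2 : (θ w) ^ 2 + θ w + 1 = 0 := by
    have := congrArg θ e1
    simpa only [map_add, map_pow, map_one, map_zero] using this
  have e3 : (θ w - w) * (θ w - w ^ 2) = 0 := by
    linear_combination e2 - θ w * e1 + h3
  have e4 : w⁻¹ = w ^ 2 := by
    refine (eq_inv_of_mul_eq_one_left ?_).symm
    rw [← h3]
    ring
  rcases mul_eq_zero.1 e3 with h | h
  · exact Or.inl (sub_eq_zero.1 h)
  · right
    rw [e4]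
    exact sub_eq_zero.1 h

variable [Fintype F] [CharP F 2]

theorem exists_cube {q : ℕ} (hF : Fintype.card F = q ^ 2) (hq : ¬ 3 ∣ q) : ∃ w : F, w ≠ 0 ∧ w ≠ 1 ∧ w ^ 3 = 1 := by
  classical
  have h1 : 3 ∣ Nat.card Fˣ := by
    rw [Nat.card_units, Nat.card_eq_fintype_card, hF]
    have h2 : q % 3 = 1 ∨ q % 3 = 2 := by omega
    have h3 : q ^ 2 % 3 = 1 := by
      rw [Nat.pow_mod]
      rcases h2 with h | h <;> rw [h]
    omega
  have : Fact (Nat.Prime 3) := ⟨Nat.prime_three⟩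
  obtain ⟨w, hw⟩ := exists_prime_orderOf_dvd_card' (G := Fˣ) 3 h1
  refine ⟨w, w.ne_zero, ?_, ?_⟩
  · intro h
    have h2 : w = 1 := Units.ext h
    rw [h2, orderOf_one] at hw
    norm_num at hw
  · have := pow_orderOf_eq_one w
    rw [hw] at this
    have h5 := congrArg Units.val this
    rwa [Units.val_pow_eq_pow_val, Units.val_one] at h5

theorem exists_frob_pow (θ : F ≃+* F) : ∃ j : ℕ, ∀ x, θ x = x ^ 2 ^ j := by
  let : Algebra (ZMod 2) F := ZMod.algebra F 2
  have hf : Module.Finite (ZMod 2) F := Module.Finite.of_finite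
  have ha : Algebra.IsAlgebraic (ZMod 2) F := inferInstance
  have : Fact (Nat.Prime 2) := ⟨Nat.prime_two⟩
  let e : F ≃ₐ[ZMod 2] F := AlgEquiv.ofRingEquiv (f := θ) (fun r => by
    have h1 : (θ : F →+* F).comp (algebraMap (ZMod 2) F) = algebraMap (ZMod 2) F := Subsingleton.elim _ _
    exact DFunLike.congr_fun h1 r)
  obtain ⟨n, hn⟩ := (FiniteField.bijective_frobeniusAlgEquivOfAlgebraic_pow (ZMod 2) F).2 e
  refine ⟨n, fun x => ?_⟩
  have h1 := DFunLike.congr_fun hn x
  change ((FiniteField.frobeniusAlgEquivOfAlgebraic (ZMod 2) F) ^ (n : ℕ)) x = θ x at h1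
  rw [← h1, AlgEquiv.coe_pow, FiniteField.coe_frobeniusAlgEquivOfAlgebraic_iterate]
  simp [ZMod.card]

omit [Fintype F] [CharP F 2] in
theorem iter_pow {x : F} {f : ℕ} (h : x ^ 2 ^ f = x) (c : ℕ) : x ^ 2 ^ (f * c) = x := by
  induction c with
  | zero => simp
  | succ c ih => rw [Nat.mul_succ, pow_add, pow_mul, ih, h]

theorem dvd_of_pow {N m : ℕ} (hF : Fintype.card F = 2 ^ N) (h : ∀ x : F, x ^ 2 ^ m = x) : N ∣ m := by
  let : Algebra (ZMod 2) F := ZMod.algebra F 2
  have hf : Module.Finite (ZMod 2) F := Module.Finite.of_finite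
  have ha : Algebra.IsAlgebraic (ZMod 2) F := inferInstance
  have : Fact (Nat.Prime 2) := ⟨Nat.prime_two⟩
  have h1 : Module.finrank (ZMod 2) F = N := by
    have h2 := Module.card_eq_pow_finrank (K := ZMod 2) (V := F)
    rw [hF, ZMod.card] at h2
    exact (Nat.pow_right_injective (le_refl 2) h2).symm
  rw [← h1, ← FiniteField.orderOf_frobeniusAlgEquivOfAlgebraic (K := ZMod 2) (L := F)]
  refine orderOf_dvd_of_pow_eq_one ?_
  ext x
  rw [AlgEquiv.coe_pow, FiniteField.coe_frobeniusAlgEquivOfAlgebraic_iterate]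
  simp only [ZMod.card]
  exact h x

/-- **The element `s`.** -/
theorem exists_s {q f k : ℕ} (hF : Fintype.card F = q ^ 2) (hqf : q = 2 ^ f) (hq : 4 ≤ q) {θ : F ≃+* F}
    (hθ : θ ^ 2 ^ k = 1) : ∃ s : F, s ≠ 0 ∧ s ≠ 1 ∧ s ^ q = s ∧ (θ s = s ∨ θ s = s⁻¹) := by
  have h3q : ¬ 3 ∣ q := by
    rw [hqf]
    intro h
    have := Nat.prime_three.dvd_of_dvd_pow h
    norm_num at this
  rcases Nat.even_or_odd f with hf | hf
  · obtain ⟨w, h0, h1, h3⟩ := exists_cube hF h3q
    refine ⟨w, h0, h1, ?_, cube_cases h1 h3 θ⟩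
    obtain ⟨r, rfl⟩ := hf
    have h4 : q % 3 = 1 := by
      rw [hqf, ← two_mul, pow_mul, Nat.pow_mod]
      norm_num
    obtain ⟨c, hc⟩ : ∃ c, q = 3 * c + 1 := ⟨q / 3, by omega⟩
    rw [hc, pow_succ, pow_mul, h3, one_pow, one_mul]
  · obtain ⟨j, hj⟩ := exists_frob_pow θ
    have hN : Fintype.card F = 2 ^ (2 * f) := by rw [hF, hqf, ← pow_mul, mul_comm]
    have hiter : ∀ n : ℕ, ∀ x : F, (θ ^ n) x = x ^ 2 ^ (j * n) := by
      intro n
      induction n with
      | zero => intro x; simp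
      | succ n ih =>
        intro x
        rw [pow_succ, Nat.mul_succ, pow_add, pow_mul']
        change (θ ^ n) (θ x) = _
        rw [ih, hj]
    have hd : 2 * f ∣ j * 2 ^ k := dvd_of_pow hN fun x => by
      rw [← hiter, hθ]
      rfl
    have hfj : f ∣ j := by
      have h1 : f ∣ j * 2 ^ k := (dvd_mul_left f 2).trans hd
      exact (Nat.Coprime.pow_right k (Nat.coprime_two_right.2 hf)).dvd_of_dvd_mul_right h1
    obtain ⟨c, rfl⟩ := hfj
    obtain ⟨g, hg⟩ := IsCyclic.exists_generator (α := Fˣ)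
    have hog : orderOf g = q ^ 2 - 1 := by
      rw [orderOf_eq_card_of_forall_mem_zpowers hg, Nat.card_units, Nat.card_eq_fintype_card, hF]
    have e1 : q ^ 2 - 1 = (q + 1) * (q - 1) := by
      have := Nat.sq_sub_sq q 1
      simpa using this
    have hs1 : (g ^ (q + 1)) ^ (q - 1) = 1 := by
      rw [← pow_mul, ← e1, ← hog, pow_orderOf_eq_one]
    have hsq : ((g ^ (q + 1) : Fˣ) : F) ^ q = ((g ^ (q + 1) : Fˣ) : F) := by
      have h1 : (g ^ (q + 1)) ^ q = g ^ (q + 1) := by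
        have h2 : q = (q - 1) + 1 := by omega
        conv_lhs => rw [h2, pow_succ (g ^ (q - 1 + 1 + 1))]
        rw [← h2, hs1, one_mul]
      have h5 := congrArg Units.val h1
      rwa [Units.val_pow_eq_pow_val] at h5
    refine ⟨((g ^ (q + 1) : Fˣ) : F), Units.ne_zero _, ?_, hsq, Or.inl ?_⟩
    · intro h
      have h1 : g ^ (q + 1) = 1 := Units.ext h
      have h2 := orderOf_dvd_of_pow_eq_one h1
      rw [hog, e1] at h2
      have h3 := Nat.le_of_dvd (by omega) h2
      have h4 : (q + 1) * 3 ≤ (q + 1) * (q - 1) := Nat.mul_le_mul_left _ (by omega)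
      omega
    · rw [hj]
      exact iter_pow (by rw [← hqf]; exact hsq) c

end Cfsg.Agent.H122.K547
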