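import Cfsg.Agent.H122.K547.Semi
import Cfsg.Agent.H122.K547.Num
import Cfsg.Agent.H118.K547.TSer

/-!
# `GInv3` for Witt frames of rank two over `F_{q²}`, `q ≥ 4` even (helper122, S4547 task QE12)
-/

set_option autoImplicit false
set_option linter.unusedSectionVars false

open Cfsg

namespace Cfsg.Agent.H122.K547

open Cfsg.Agent.ChevalleyStructure.CoxeterGeom Cfsg.Agent.Tits.Roots Cfsg.Agent.Nodes.TypeC
open Cfsg.Agent.Nodes.Comb Cfsg.Agent.Nodes.Reps Cfsg.Agent.Nodes.WittRoot Cfsg.Agent.Nodes.BNOf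
open Cfsg.Agent.Nodes.WittRGD Cfsg.Agent.Nodes.RGDLib
open Cfsg.Agent.TitsThree Cfsg.Agent.TitsThree.Siegel Cfsg.Agent.TitsThree.WittFrame
  Cfsg.Agent.TitsThree.WittWeyl Cfsg.Agent.TitsThree.FrameCN
open Cfsg.Agent.Nodes
open Cfsg.Agent.H53.HC (MJ)
open Cfsg.Agent.Nodes.Bruhat (GG)
open Cfsg.Agent.H726.Four (inv_apply_of aa aa_true aa_neg_true aa_false aa_neg_false aa_V0 b_ne_zero Nm NN_le
  conj_fix_iff)
open Cfsg.Agent.KFacts.RgdAut (Fix)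
open Cfsg.Agent.KFacts.RgdDiag (Diag)
open Cfsg.Agent.H307.QE Cfsg.Agent.H118.K547 Cfsg.Agent.H821.K547

universe u

/-! ### the nodes are fixed -/

section sigma

variable {I W Y : Type*} [Fintype I] [DecidableEq I] [Group W] [Group Y] {M : CoxeterMatrix I}
  {cs : CoxeterSystem M W} {A : I → I → ℤ} {h : IsCartan M A} {T : Subgroup Y} {X : (I → ℤ) → Subgroup Y}

theorem card_diag {g : MulAut Y} {σ : Equiv.Perm I} (D : Diag T X g σ) (i : I) :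
    Nat.card (X (sr (σ i))) = Nat.card (X (sr i)) := by
  refine (Nat.card_congr (Equiv.ofBijective (fun x : X (sr i) => (⟨g x, (D.pos i x).2 x.2⟩ : X (sr (σ i)))) ⟨?_, ?_⟩)).symm
  · intro a b hab
    exact Subtype.ext (g.injective (congrArg Subtype.val hab))
  · rintro ⟨y, hy⟩
    refine ⟨⟨g⁻¹ y, (D.pos i _).1 (by rwa [MulAut.apply_inv_self])⟩, Subtype.ext ?_⟩
    exact MulAut.apply_inv_self _ g y

theorem sigma_one {X : (Fin 2 → ℤ) → Subgroup Y} (hc : Nat.card (X (sr 0)) ≠ Nat.card (X (sr 1))) {g : MulAut Y}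
    {σ : Equiv.Perm (Fin 2)} (D : Diag T X g σ) : σ = 1 := by
  have h0 : σ 0 = 0 := by
    by_contra h
    have h1 : σ 0 = 1 := by
      generalize σ 0 = z at h ⊢
      fin_cases z
      · exact absurd rfl h
      · rfl
    have h2 := card_diag D 0
    rw [h1] at h2
    exact hc h2.symm
  have h1 : σ 1 = 1 := by
    have h2 : σ 1 ≠ σ 0 := fun e => by simpa using σ.injective e
    rw [h0] at h2
    generalize σ 1 = z at h2 ⊢
    fin_cases z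
    · exact absurd rfl h2
    · rfl
  ext i
  fin_cases i
  · exact congrArg Fin.val h0
  · exact congrArg Fin.val h1

end sigma

/-! ### two elements of the torus -/

section elts

variable {F : Type*} [Field F] {V : Type*} [AddCommGroup V] [Module F V] {H : HForm F V}
  {Fr : Frame H (Fin 2)} {K : Type u} [Group K] (M : Model Fr K)

/-- an element of the model -/
theorem dg_apply (hA : Amb Fr M.I) {l : Fin 2 → F} {g k : V ≃ₗ[F] V} (hg : Dg Fr M.I l g) (hk : Dg Fr M.I l k) :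
    M.φ ⟨g, hg.mem⟩ = M.φ ⟨k, hk.mem⟩ := by
  congr 1
  exact Subtype.ext (Dg.unique hA hg hk)

theorem dg_congr {G0 : Subgroup (V ≃ₗ[F] V)} {l m : Fin 2 → F} {g : V ≃ₗ[F] V} (hg : Dg Fr G0 l g)
    (h0 : l 0 = m 0) (h1 : l 1 = m 1) : Dg Fr G0 m g := by
  have e : l = m := by
    funext i
    fin_cases i
    · exact h0
    · exact h1
  rw [← e]
  exact hg

/-- no conjugacy -/
theorem not_conj (hA' : Amb Fr M.I) (hA : WittAll.AmbT Fr 2 M.I)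
    (hinj : ∀ (z : V ≃ₗ[F] V) (hz : z ∈ M.I), M.φ ⟨z, hz⟩ = 1 → (∀ v ∈ Fr.V0, z v = v) → z = 1)
    {p0 : Fr.Adm} (hp0 : p0.c ≠ 0) {W : Type*} [Group W] (cs : CoxeterSystem (CoxeterMatrix.B 2) W)
    (hN : NSys (CoxeterMatrix.B 2) (WittModel.T M) (fun i => M.φ ⟨nn Fr p0 i, WittAll.nn_mem hA p0 i⟩))
    {l m : Fin 2 → F} {h k : V ≃ₗ[F] V} (hh : Dg Fr M.I l h) (hk : Dg Fr M.I m k) (hl : ∀ i, l i ≠ 1) (hm : m 1 = 1)
    (x : K) (hx : x ∈ NN cs hN) : x * M.φ ⟨h, hh.mem⟩ * x⁻¹ ≠ M.φ ⟨k, hk.mem⟩ := by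
  intro e
  obtain ⟨⟨g, hgI⟩, hg, rfl⟩ := NN_le M hA hp0 cs hN hx
  obtain ⟨-, π, hπ⟩ := Subgroup.mem_subgroupOf.1 hg
  have hker : M.φ ((⟨k, hk.mem⟩ : M.I)⁻¹ * (⟨g, hgI⟩ * ⟨h, hh.mem⟩ * (⟨g, hgI⟩ : M.I)⁻¹)) = 1 := by
    rw [map_mul, map_inv, map_mul, map_mul, map_inv, e, inv_mul_cancel]
  have hV : ∀ v ∈ Fr.V0, (k⁻¹ * (g * h * g⁻¹)) v = v := by
    intro v hv
    have hg0 : g⁻¹ v ∈ Fr.V0 :=
      hA'.map_V0 (inv_mem hgI) (π := π.symm) (ρ := π) (hπ.inv fun x => π.apply_symm_apply x)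
        (fun x => π.symm_apply_apply x) hv
    have hk0' : k⁻¹ v = v := by
      have h1 : k⁻¹ (k v) = v := k.symm_apply_apply _
      rwa [hk.V0 v hv] at h1
    rw [mul_apply', mul_apply', mul_apply', hh.V0 _ hg0]
    have h1 : g (g⁻¹ v) = v := g.apply_symm_apply _
    rw [h1, hk0']
  have h1 := hinj _ (mul_mem (inv_mem hk.mem) (mul_mem (mul_mem hgI hh.mem) (inv_mem hgI))) hker hV
  have h2 : g * h * g⁻¹ = k := (inv_mul_eq_one.1 h1).symm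
  have h3 : k (Fr.b (1, true)) = Fr.b (1, true) := by rw [hk.tr, hm, one_smul]
  obtain ⟨y, hy⟩ := π.surjective (1, true)
  have h4 := (conj_fix_iff (h := h) hπ y).1 (by rw [h2, hy, h3])
  obtain ⟨i, s⟩ := y
  cases s
  · rw [hh.fa, H726.Four.smul_eq_self_iff (H726.Four.b_ne_zero _), inv_eq_one] at h4
    apply hl i
    have h5 := congrArg H.σ h4
    rwa [H.σσ, map_one] at h5
  · rw [hh.tr, H726.Four.smul_eq_self_iff (H726.Four.b_ne_zero _)] at h4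
    exact hl i h4

/-- **`GInv3`, `q ≥ 4`.** -/
theorem gInv3_ge [Finite F] [CharP F 2] [Finite V] [Finite K] (hA' : Amb Fr M.I) (hA : WittAll.AmbT Fr 2 M.I)
    (hinj : ∀ (z : V ≃ₗ[F] V) (hz : z ∈ M.I), M.φ ⟨z, hz⟩ = 1 → (∀ v ∈ Fr.V0, z v = v) → z = 1)
    (hab : ∀ a ∈ WittModel.T M, ∀ b ∈ WittModel.T M, a * b = b * a)
    {p0 : Fr.Adm} (hp0 : p0.c ≠ 0) {W : Type*} [Group W] [Finite W] (cs : CoxeterSystem (CoxeterMatrix.B 2) W)
    (R : RGD cs (isCartan 2) 2 (WittModel.T M) (fun i => M.φ ⟨nn Fr p0 i, WittAll.nn_mem hA p0 i⟩) (WittModel.X M))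
    (hG : GG cs (isCartan 2) (WittModel.T M) (WittModel.X M) = ⊤) (hC : H601.OddDeg.TwoC K) {q f : ℕ}
    (hF : Nat.card F = q ^ 2) (hqf : q = 2 ^ f) (hq : 4 ≤ q) (hσ : ∀ x : F, H.σ x = x ^ q)
    {β : MulAut K} (hN : Nrm R β 1) : GInv3 β := by
  have : Fintype F := Fintype.ofFinite F
  rw [Nat.card_eq_fintype_card] at hF
  have hX : Fix β (WittModel.X M (sr 0)) := fun x => hN.diag.pos 0 x
  have hM : Fix β (MJ cs (isCartan 2) (WittModel.X M) {0}) := hN.fixMJ hG (by rw [Set.image_singleton]; rfl)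
  obtain ⟨θ, hθ⟩ := semilin M hA' hA cs hX hN.fixT hM
  obtain ⟨k, hk⟩ := hN.pow
  obtain ⟨s, hs0, hs1, hsq, hs⟩ := exists_s hF hqf hq (pow_theta M hA' hA hθ hk)
  have hσs : H.σ s = s := by rw [hσ, hsq]
  -- the elements
  have d1 := aa_dg hA hs0
  have hn0 := WittAll.nn_mem hA p0 0
  have hn1 := WittAll.nn_mem hA p0 1
  have d1' : Dg Fr M.I ![s, s] (nn Fr p0 1 * aa Fr 0 1 s * (nn Fr p0 1)⁻¹) := by
    refine dg_congr (Dg.conj1 hA' hp0 hn1 d1) rfl ?_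
    change (H.σ s⁻¹)⁻¹ = s
    rw [map_inv₀, inv_inv, hσs]
  have d2 : Dg Fr M.I ![s * s, 1] (aa Fr 0 1 s * (nn Fr p0 1 * aa Fr 0 1 s * (nn Fr p0 1)⁻¹)) := by
    refine dg_congr (d1.mul d1') rfl ?_
    change s⁻¹ * s = 1
    exact inv_mul_cancel₀ hs0
  have hss : s * s ≠ 1 := by
    intro h
    exact hs1 (sq_inj (h.trans (one_mul 1).symm))
  set n0 : K := M.φ ⟨nn Fr p0 0, hn0⟩ with hn0d
  set n1 : K := M.φ ⟨nn Fr p0 1, hn1⟩ with hn1d
  set t1 : K := h0 M s with ht1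
  have m1 : t1 ∈ WittModel.T M := h0_mem_T M hA hs0
  have e2 : t1 * (n1 * t1 * n1⁻¹) = M.φ ⟨_, d2.mem⟩ := by
    rw [ht1, hn1d, h0, ← map_inv, ← map_mul, ← map_mul, ← map_mul]
    rfl
  have m2 : t1 * (n1 * t1 * n1⁻¹) ∈ WittModel.T M := by
    rw [e2]
    exact Subgroup.mem_map_of_mem _ (Subgroup.mem_subgroupOf.2 d2.tor)
  have m1n : n1 * t1 * n1⁻¹ ∈ WittModel.T M := by
    have h1 := mul_mem (inv_mem m1) m2
    rwa [inv_mul_cancel_left] at h1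
  have nn0 : n0 ∈ NN cs R.nsys := ⟨_, rp_simple cs R.nsys 0⟩
  have nn1 : n1 ∈ NN cs R.nsys := ⟨_, rp_simple cs R.nsys 1⟩
  -- `n0` inverts `t1`
  have i1 : n0 * t1 * n0⁻¹ = t1⁻¹ := by
    have h1 := dg_apply M hA' (dg_congr (Dg.conj0 hn0 d1) (m := ![s⁻¹, s]) rfl rfl)
      (dg_congr d1.inv (m := ![s⁻¹, s]) rfl (inv_inv s))
    rw [ht1, hn0d, h0, ← map_inv, ← map_inv, ← map_mul, ← map_mul]
    exact h1
  have i2 : (n0 * n1 * n0) * (t1 * (n1 * t1 * n1⁻¹)) * (n0 * n1 * n0)⁻¹ = (t1 * (n1 * t1 * n1⁻¹))⁻¹ := by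
    have c1 : Dg Fr M.I ![1, s * s] _ := dg_congr (Dg.conj0 hn0 d2) rfl rfl
    have c2 : Dg Fr M.I ![1, (s * s)⁻¹] _ := dg_congr (Dg.conj1 hA' hp0 hn1 c1) rfl (by
      change (H.σ (s * s))⁻¹ = (s * s)⁻¹
      rw [map_mul, hσs])
    have c3 : Dg Fr M.I ![(s * s)⁻¹, 1] _ := dg_congr (Dg.conj0 hn0 c2) rfl rfl
    have h1 := dg_apply M hA' c3 (dg_congr d2.inv (m := ![(s * s)⁻¹, 1]) rfl inv_one)
    have h2 : (n0 * n1 * n0) * (t1 * (n1 * t1 * n1⁻¹)) * (n0 * n1 * n0)⁻¹ =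
        n0 * (n1 * (n0 * (t1 * (n1 * t1 * n1⁻¹)) * n0⁻¹) * n1⁻¹) * n0⁻¹ := by group
    rw [h2, e2, hn0d, hn1d, ← map_inv, ← map_inv, ← map_inv, ← map_mul, ← map_mul, ← map_mul, ← map_mul, ← map_mul,
      ← map_mul]
    exact h1
  -- the action of `β`
  have b1 : β t1 = t1 ∨ β t1 = t1⁻¹ := by
    rcases hs with h | h
    · left
      rw [ht1, hθ s hs0, h]
    · right
      rw [ht1, hθ s hs0, h]
      have h1 := dg_apply M hA' (aa_dg hA (inv_ne_zero hs0)) (dg_congr d1.inv (m := ![s⁻¹, s⁻¹⁻¹]) rfl rfl)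
      have h2 : (h0 M s)⁻¹ = M.φ ⟨(aa Fr 0 1 s)⁻¹, d1.inv.mem⟩ := by
        rw [h0, ← map_inv]
        rfl
      rw [h2]
      exact h1
  have b2 : β (t1 * (n1 * t1 * n1⁻¹)) = t1 * (n1 * t1 * n1⁻¹) ∨
      β (t1 * (n1 * t1 * n1⁻¹)) = (t1 * (n1 * t1 * n1⁻¹))⁻¹ := by
    have h1 : β (n1 * t1 * n1⁻¹) = n1 * β t1 * n1⁻¹ := conj_comm_simple hN (i := 1) rfl hab m1
    rw [map_mul, h1]
    rcases b1 with h | h
    · left
      rw [h]
    · right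
      rw [h, mul_inv_rev, hab _ (inv_mem m1n) _ (inv_mem m1)]
      congr 1
      group
  have hn1' : t1 ≠ 1 := by
    intro h
    have h1 := conj_h0 M hA' hA hs0 1
    rw [← ht1, h, one_mul, inv_one, mul_one, mul_one] at h1
    exact hss (x0_inj M h1).symm
  have hn2' : t1 * (n1 * t1 * n1⁻¹) ≠ 1 := by
    intro h
    have h1 := conj_x0 M hA' d2 1
    rw [← e2, h, one_mul, inv_one, mul_one] at h1
    have h2 := x0_inj M h1
    have h3 : (![s * s, 1] : Fin 2 → F) 0 * ((![s * s, 1] : Fin 2 → F) 1)⁻¹ * 1 = s * s := by simp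
    rw [h3] at h2
    exact hss h2.symm
  refine gInv3_of_elts hN hG hC hab m1 m2 hn1' hn2' ?_ ?_ ?_
  · intro x hx e
    rw [e2] at e
    refine not_conj M hA' hA hinj hp0 cs R.nsys d1 d2 ?_ rfl x hx e
    intro i
    fin_cases i
    · exact hs1
    · exact inv_ne_one.2 hs1
  · rcases b1 with h | h
    · exact ⟨1, one_mem _, by rw [h, one_mul, inv_one, mul_one]⟩
    · exact ⟨n0, nn0, by rw [h, i1]⟩
  · rcases b2 with h | h
    · exact ⟨1, one_mem _, by rw [h, one_mul, inv_one, mul_one]⟩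
    · exact ⟨n0 * n1 * n0, mul_mem (mul_mem nn0 nn1) nn0, by rw [h, i2]⟩

end elts

end Cfsg.Agent.H122.K547
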