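import Cfsg.Agent.H122.K547.Semi
import Cfsg.Agent.Nodes.WittU
import Cfsg.Agent.TitsThree.KInstU

/-!
# The last node of a Witt frame of rank two over the field with four elements (helper122, S4547 task QE12)

* `last_cent` : `T ∩ M_1` centralises `X_1`, if `l σ(l) = 1` for all `l ≠ 0`.
-/

set_option autoImplicit false
set_option linter.unusedSectionVars false

open Cfsg

namespace Cfsg.Agent.H122.K547

open Cfsg.Agent.ChevalleyStructure.CoxeterGeom Cfsg.Agent.Tits.Roots Cfsg.Agent.Nodes.TypeC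
open Cfsg.Agent.Nodes.Comb Cfsg.Agent.Nodes.Reps Cfsg.Agent.Nodes.WittRoot Cfsg.Agent.Nodes.BNOf
open Cfsg.Agent.Nodes.WittRGD Cfsg.Agent.Nodes.RGDLib
open Cfsg.Agent.TitsThree Cfsg.Agent.TitsThree.Siegel Cfsg.Agent.TitsThree.WittFrame
  Cfsg.Agent.TitsThree.WittWeyl Cfsg.Agent.TitsThree.FrameCN
open Cfsg.Agent.Nodes
open Cfsg.Agent.H53.HC (MJ)

section frame

variable {F : Type*} [Field F] {V : Type*} [AddCommGroup V] [Module F V] {H : HForm F V}

variable (Fr : Frame H (Fin 2)) in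
/-- the elements fixing `b (0, s)` -/
def Zs : Subgroup (V ≃ₗ[F] V) where
  carrier := {g | ∀ s, g (Fr.b (0, s)) = Fr.b (0, s)}
  one_mem' := fun _ => rfl
  mul_mem' := fun {g k} hg hk s => by rw [mul_apply', hk, hg]
  inv_mem' := fun {g} hg s => by
    have h1 : g⁻¹ (g (Fr.b (0, s))) = Fr.b (0, s) := g.symm_apply_apply _
    rwa [hg] at h1

variable {Fr : Frame H (Fin 2)} {K : Type*} [Group K] (M : Model Fr K)

theorem MJ_one_le {W : Type*} [Group W] (cs : CoxeterSystem (CoxeterMatrix.B 2) W) :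
    MJ cs (isCartan 2) (WittModel.X M) {1} ≤ ((Zs Fr).subgroupOf M.I).map M.φ := by
  have key : ∀ x, rg Fr x ≤ Zs Fr → WittModel.X M x ≤ ((Zs Fr).subgroupOf M.I).map M.φ := by
    intro x hx
    exact Subgroup.map_mono (fun g hg => Subgroup.mem_subgroupOf.2 (hx (Subgroup.mem_subgroupOf.1 hg)))
  refine RGD.Sup_le fun x hx => ?_
  rcases H619.Gow.rootsJ_single hx with rfl | rfl
  · refine key _ ?_
    rw [rg_sr, nx_one, PG_self]
    rintro _ ⟨p, rfl⟩ s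
    exact Z_apply_of_ne Fr (by cases s <;> decide) p
  · refine key _ ?_
    rw [rg_neg_sr, nx_one, PG_self]
    rintro _ ⟨p, rfl⟩ s
    exact Z_apply_of_ne Fr (by cases s <;> decide) p

/-- **`T ∩ M_1` centralises `X_1`.** -/
theorem last_cent (hA : Amb Fr M.I) {d : V} (hd : ∀ v ∈ Fr.V0, ∃ a : F, v = a • d) (hd0 : d ∈ Fr.V0)
    (hσ : ∀ l : F, l ≠ 0 → l * H.σ l = 1)
    (hdet : ∀ m ∈ M.I, ∀ a c : F, (∀ s, m (Fr.b (0, s)) = Fr.b (0, s)) → m (Fr.b (1, true)) = a • Fr.b (1, true) →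
      m (Fr.b (1, false)) = a • Fr.b (1, false) → m d = c • d → m d = a • d)
    {W : Type*} [Group W] (cs : CoxeterSystem (CoxeterMatrix.B 2) W) {t u : K} (ht : t ∈ WittModel.T M)
    (ht' : t ∈ MJ cs (isCartan 2) (WittModel.X M) {1}) (hu : u ∈ WittModel.X M (sr 1)) : t * u = u * t := by
  obtain ⟨⟨m₀, hm₀⟩, hm, rfl⟩ := MJ_one_le M cs ht'
  obtain ⟨⟨t₀, ht₀⟩, htT, e⟩ := ht
  have hfix : ∀ s, m₀ (Fr.b (0, s)) = Fr.b (0, s) := Subgroup.mem_subgroupOf.1 hm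
  have htT := Subgroup.mem_subgroupOf.1 htT
  have hker : M.φ ((⟨t₀, ht₀⟩ : M.I)⁻¹ * ⟨m₀, hm₀⟩) = 1 := by
    rw [map_mul, map_inv, e, inv_mul_cancel]
  have hdiag : ∀ (v : V) (l : F), t₀ v = l • v → ∃ c : F, m₀ v = c • v := by
    intro v l hl
    obtain ⟨c, hc⟩ : ∃ c : F, (t₀⁻¹ * m₀) v = c • v := M.ker v _ hker
    refine ⟨c * l, ?_⟩
    have h1 : t₀ ((t₀⁻¹ * m₀) v) = m₀ v := t₀.apply_symm_apply _
    rw [← h1, hc, map_smul, hl, smul_smul]
  obtain ⟨l1, -, hl1⟩ := htT.2 (1, true)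
  obtain ⟨l2, -, hl2⟩ := htT.2 (1, false)
  obtain ⟨a, ha⟩ := hdiag _ l1 hl1
  obtain ⟨b, hb⟩ := hdiag _ l2 hl2
  have ha0 : a ≠ 0 := by
    rintro rfl
    rw [zero_smul] at ha
    exact H726.Four.b_ne_zero _ (m₀.map_eq_zero_iff.1 ha)
  have hba : b = a := by
    have h1 := hA.iso m₀ hm₀ (Fr.b (1, false)) (Fr.b (1, true))
    rw [hb, ha, H.smul_left, H.smul_right] at h1
    have h2 : H.h (Fr.b (1, false)) (Fr.b (1, true)) ≠ 0 := by
      have := Fr.hb_self_neg (1, false)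
      rw [show (neg (1, false) : Fin 2 × Bool) = (1, true) from rfl] at this
      rw [this]
      exact Fr.η_ne _
    have h3 : b * H.σ a = 1 := by
      apply mul_right_cancel₀ h2
      rw [one_mul, mul_assoc]
      exact h1
    have h4 : H.σ a ≠ 0 := σ_ne ha0
    exact mul_right_cancel₀ h4 (h3.trans (hσ a ha0).symm)
  rw [hba] at hb
  have hmd : m₀ d = a • d := by
    have h1 : t₀ d ∈ Fr.V0 := hA.map_V0 ht₀ htT.2 (ρ := id) (fun _ => rfl) hd0
    obtain ⟨l, hl⟩ := hd _ h1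
    obtain ⟨c, hc⟩ := hdiag d l hl
    exact hdet m₀ hm₀ a c hfix ha hb hc
  obtain ⟨g, hg, hgr, rfl⟩ := (WittModel.mem_X M).1 hu
  rw [rg_sr, nx_one, PG_self] at hgr
  obtain ⟨p, rfl⟩ := hgr
  have hmono : Mono Fr m₀ id := by
    rintro ⟨i, s⟩
    fin_cases i
    · exact ⟨1, one_ne_zero, by rw [one_smul]; exact hfix s⟩
    · cases s
      · exact ⟨a, ha0, hb⟩
      · exact ⟨a, ha0, ha⟩
  obtain ⟨q, hq1, hq2⟩ := hA.exists_adm hm₀ hmono (ρ := id) (fun _ => rfl) p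
  have h1 := conj_Z Fr (hA.iso m₀ hm₀) ha p q hq1 hq2
  have hσa : H.σ a * a = 1 := by rw [mul_comm]; exact hσ a ha0
  have h2 : Frame.Adm.smul (H.σ a) q = p := by
    obtain ⟨c, hc⟩ := hd _ (Fr.ok_mem p.ok)
    ext
    · rw [Frame.Adm.smul_w, ← hq1, hc, map_smul, hmd, smul_smul, smul_smul]
      congr 1
      linear_combination c * hσa
    · rw [Frame.Adm.smul_c, ← hq2, H.σσ, hσa, one_mul]
  rw [h2] at h1
  rw [← map_mul, ← map_mul]
  congr 1
  apply Subtype.ext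
  change m₀ * Fr.Z (1, true) p = Fr.Z (1, true) p * m₀
  exact mul_inv_eq_iff_eq_mul.1 h1

end frame

end Cfsg.Agent.H122.K547
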