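import Cfsg.Agent.H122.K547.Dg
import Cfsg.Agent.KFacts.RgdAut

/-!
# Semilinearity of automorphisms on the first node of a Witt frame of rank two (helper122, S4547 task QE12)

* `x0`, `h0` : the root elements and the elements of the torus of `M_0`;
* `semilin` : an automorphism fixing `X_0`, `T`, `M_0` acts on the `h0 a` by a field automorphism.
-/

set_option autoImplicit false
set_option linter.unusedSectionVars false

open Cfsg

namespace Cfsg.Agent.H122.K547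

open Cfsg.Agent.ChevalleyStructure.CoxeterGeom Cfsg.Agent.Tits.Roots Cfsg.Agent.Nodes.TypeC
open Cfsg.Agent.Nodes.Comb Cfsg.Agent.Nodes.Reps Cfsg.Agent.Nodes.WittRoot Cfsg.Agent.Nodes.BNOf
open Cfsg.Agent.Nodes.WittRGD Cfsg.Agent.Nodes.RGDLib
open Cfsg.Agent.TitsThree Cfsg.Agent.TitsThree.Siegel Cfsg.Agent.TitsThree.WittFrame
  Cfsg.Agent.TitsThree.WittWeyl Cfsg.Agent.TitsThree.FrameCN
open Cfsg.Agent.Nodes
open Cfsg.Agent.H53.HC (MJ)
open Cfsg.Agent.H726.Four (inv_apply_of aa aa_true aa_neg_true aa_false aa_neg_false aa_V0 b_ne_zero)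
open Cfsg.Agent.KFacts.RgdAut (Fix)

variable {F : Type*} [Field F] {V : Type*} [AddCommGroup V] [Module F V] {H : HForm F V}
  {Fr : Frame H (Fin 2)} {K : Type*} [Group K] (M : Model Fr K)

/-- the root elements of the first node -/
def x0 (a : F) : K := M.φ ⟨Fr.X (0, true) (1, false) a, M.hX _ _ _⟩

theorem x0_add (a b : F) : x0 M (a + b) = x0 M a * x0 M b := by
  unfold x0
  rw [← map_mul]
  congr 1
  apply Subtype.ext
  exact Fr.X_add (0, true) (1, false) a b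

theorem x0_inj {a b : F} (h : x0 M a = x0 M b) : a = b := by
  have h1 : M.φ ((⟨Fr.X (0, true) (1, false) b, M.hX _ _ _⟩ : M.I)⁻¹ * ⟨Fr.X (0, true) (1, false) a, M.hX _ _ _⟩) = 1 := by
    rw [map_mul, map_inv]
    exact inv_mul_eq_one.2 h.symm
  have hne : ((0, true) : Fin 2 × Bool).1 ≠ ((1, false) : Fin 2 × Bool).1 := by decide
  obtain ⟨c, hc⟩ : ∃ c : F, ((Fr.X (0, true) (1, false) b)⁻¹ * Fr.X (0, true) (1, false) a) (Fr.b (1, true)) =
    c • Fr.b (1, true) := M.ker (Fr.b (1, true)) _ h1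
  rw [← Fr.X_neg, ← Fr.X_add] at hc
  have h2 : Fr.X (0, true) (1, false) (-b + a) (Fr.b (1, true)) = Fr.b (1, true) + (-b + a) • Fr.b (0, true) :=
    X_apply_neg Fr hne _
  rw [h2] at hc
  have h3 := coef_eq (Fr := Fr) (a := -b + a) (b := 1) (c := 0) (d := c) (by
    rw [one_smul, zero_smul, zero_add, ← hc, add_comm])
  linear_combination h3.1

theorem mem_X0 {k : K} : k ∈ WittModel.X M (sr 0) ↔ ∃ a, k = x0 M a := by
  have hne : ((0, true) : Fin 2 × Bool).1 ≠ ((1, false) : Fin 2 × Bool).1 := by decide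
  rw [WittModel.mem_X, rg_sr, nx_zero, PG_ne Fr hne]
  constructor
  · rintro ⟨g, hg, ⟨t, rfl⟩, rfl⟩
    exact ⟨t, rfl⟩
  · rintro ⟨t, rfl⟩
    exact ⟨_, _, ⟨t, rfl⟩, rfl⟩

theorem conj_x0 (hA : Amb Fr M.I) {l : Fin 2 → F} {g : V ≃ₗ[F] V} (hg : Dg Fr M.I l g) (a : F) :
    M.φ ⟨g, hg.mem⟩ * x0 M a * (M.φ ⟨g, hg.mem⟩)⁻¹ = x0 M (l 0 * (l 1)⁻¹ * a) := by
  have hne : ((0, true) : Fin 2 × Bool).1 ≠ ((1, false) : Fin 2 × Bool).1 := by decide
  have h1 := conj_X Fr (hA.iso g hg.mem) hne hne (hg.tr 0) (hg.fa 1) a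
  unfold x0
  rw [← map_inv, ← map_mul, ← map_mul]
  congr 1
  apply Subtype.ext
  change g * Fr.X (0, true) (1, false) a * g⁻¹ = _
  rw [h1, map_inv₀, H.σσ]
  congr 1
  have h2 := Fr.η_ne (1, false)
  field_simp

variable {p : ℕ} (hA : WittAll.AmbT Fr p M.I)

theorem aa_mem' (a : F) : aa Fr 0 1 a ∈ M.I :=
  mul_mem (mul_mem (mul_mem (M.hX _ _ _) (M.hX _ _ _)) (M.hX _ _ _))
    (inv_mem (mul_mem (mul_mem (M.hX _ _ _) (M.hX _ _ _)) (M.hX _ _ _)))

/-- the elements of the torus of the first node -/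
def h0 (a : F) : K := M.φ ⟨aa Fr 0 1 a, aa_mem' M a⟩

include hA in
theorem h0_mem_T {a : F} (ha : a ≠ 0) : h0 M a ∈ WittModel.T M :=
  Subgroup.mem_map_of_mem _ (Subgroup.mem_subgroupOf.2 (aa_dg hA ha).tor)

theorem h0_mem_MJ {W : Type*} [Group W] (cs : CoxeterSystem (CoxeterMatrix.B 2) W) (a : F) :
    h0 M a ∈ MJ cs (isCartan 2) (WittModel.X M) {0} := by
  have hne : ((0, true) : Fin 2 × Bool).1 ≠ ((1, false) : Fin 2 × Bool).1 := by decide
  have k1 : ∀ t, M.φ ⟨Fr.X (0, true) (1, false) t, M.hX _ _ _⟩ ∈ MJ cs (isCartan 2) (WittModel.X M) {0} := by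
    intro t
    exact (RGD.le_Sup (H619.Gow.sr_mem_rootsJ 0) : WittModel.X M (sr 0) ≤ _) ((mem_X0 M).2 ⟨t, rfl⟩)
  have k2 : ∀ t, M.φ ⟨Fr.X (neg (1, false)) (neg (0, true)) t, M.hX _ _ _⟩ ∈
      MJ cs (isCartan 2) (WittModel.X M) {0} := by
    intro t
    refine (RGD.le_Sup (H619.Gow.neg_sr_mem_rootsJ 0) : WittModel.X M (-sr 0) ≤ _) (WittModel.mem_X_of M _ ?_)
    rw [rg_neg_sr, nx_zero, PG_ne Fr (show (ng ((0, true) : Fin 2 × Bool)).1 ≠ (ng (1, false)).1 by decide),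
      XG_swap Fr (show (ng ((0, true) : Fin 2 × Bool)).1 ≠ (ng (1, false)).1 by decide)]
    exact ⟨t, rfl⟩
  have k3 : ∀ t, M.φ ⟨nX Fr (0, true) (1, false) t, mul_mem (mul_mem (M.hX _ _ _) (M.hX _ _ _)) (M.hX _ _ _)⟩ ∈
      MJ cs (isCartan 2) (WittModel.X M) {0} := by
    intro t
    have e : (⟨nX Fr (0, true) (1, false) t, mul_mem (mul_mem (M.hX _ _ _) (M.hX _ _ _)) (M.hX _ _ _)⟩ : M.I) =
      ⟨Fr.X (0, true) (1, false) t, M.hX _ _ _⟩ * ⟨Fr.X (neg (1, false)) (neg (0, true)) (-t⁻¹), M.hX _ _ _⟩ *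
        ⟨Fr.X (0, true) (1, false) t, M.hX _ _ _⟩ := rfl
    rw [e, map_mul, map_mul]
    exact mul_mem (mul_mem (k1 _) (k2 _)) (k1 _)
  have e : (⟨aa Fr 0 1 a, aa_mem' M a⟩ : M.I) =
    ⟨nX Fr (0, true) (1, false) a, mul_mem (mul_mem (M.hX _ _ _) (M.hX _ _ _)) (M.hX _ _ _)⟩ *
      (⟨nX Fr (0, true) (1, false) 1, mul_mem (mul_mem (M.hX _ _ _) (M.hX _ _ _)) (M.hX _ _ _)⟩ : M.I)⁻¹ := rfl
  rw [h0, e, map_mul, map_inv]
  exact mul_mem (k3 _) (inv_mem (k3 _))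

theorem h0_eq (hA' : Amb Fr M.I) (hA : WittAll.AmbT Fr p M.I) {W : Type*} [Group W]
    (cs : CoxeterSystem (CoxeterMatrix.B 2) W) {t : K}
    (ht : t ∈ WittModel.T M) (ht' : t ∈ MJ cs (isCartan 2) (WittModel.X M) {0}) : ∃ a : F, a ≠ 0 ∧ t = h0 M a := by
  obtain ⟨a, g, hg, rfl, hd⟩ := exists_dg M hA' cs ht ht'
  have ha : a ≠ 0 := hd.ne 0
  refine ⟨a, ha, ?_⟩
  unfold h0
  congr 1
  exact Subtype.ext (Dg.unique hA' hd (aa_dg hA ha))

theorem conj_h0 (hA' : Amb Fr M.I) (hA : WittAll.AmbT Fr p M.I) {a : F} (ha : a ≠ 0) (b : F) :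
    h0 M a * x0 M b * (h0 M a)⁻¹ = x0 M (a * a * b) := by
  have h1 := conj_x0 M hA' (aa_dg hA ha) b
  have e : (![a, a⁻¹] : Fin 2 → F) 0 * ((![a, a⁻¹] : Fin 2 → F) 1)⁻¹ * b = a * a * b := by
    simp
  rw [e] at h1
  exact h1

theorem sq_inj {K : Type*} [Field K] [CharP K 2] {a b : K} (h : a * a = b * b) : a = b := by
  have h1 : (a - b) * (a - b) = 0 := by
    have h2 : (2 : K) = 0 := CharTwo.two_eq_zero
    linear_combination h + (b * b - a * b) * h2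
  exact sub_eq_zero.1 (mul_self_eq_zero.1 h1)

theorem h0_inj [CharP F 2] (hA' : Amb Fr M.I) (hA : WittAll.AmbT Fr p M.I) {a b : F} (ha : a ≠ 0) (hb : b ≠ 0)
    (h : h0 M a = h0 M b) : a = b := by
  have h1 := conj_h0 M hA' hA ha 1
  rw [h, conj_h0 M hA' hA hb 1] at h1
  have h2 := x0_inj M h1
  rw [mul_one, mul_one] at h2
  exact (sq_inj h2).symm

/-- **Semilinearity.** -/
theorem semilin [Finite F] [CharP F 2] (hA' : Amb Fr M.I) (hA : WittAll.AmbT Fr p M.I) {W : Type*} [Group W]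
    (cs : CoxeterSystem (CoxeterMatrix.B 2) W) {β : MulAut K} (hX : Fix β (WittModel.X M (sr 0)))
    (hT : Fix β (WittModel.T M)) (hM : Fix β (MJ cs (isCartan 2) (WittModel.X M) {0})) :
    ∃ θ : F ≃+* F, ∀ a, a ≠ 0 → β (h0 M a) = h0 M (θ a) := by
  have h1 : ∀ a, ∃ b, β (x0 M a) = x0 M b := fun a => (mem_X0 M).1 ((hX _).2 ((mem_X0 M).2 ⟨a, rfl⟩))
  choose g hg using h1
  have gadd : ∀ a b, g (a + b) = g a + g b := by
    intro a b
    apply x0_inj M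
    rw [← hg, x0_add, map_mul, hg, hg, x0_add]
  have g0 : g 0 = 0 := by
    have := gadd 0 0
    rw [add_zero] at this
    exact left_eq_add.1 this
  have ginj : Function.Injective g := by
    intro a b hab
    apply x0_inj M
    apply β.injective
    rw [hg, hg, hab]
  set c := g 1 with hc
  have hc0 : c ≠ 0 := by
    intro h2
    rw [← g0] at h2
    exact one_ne_zero (ginj h2)
  have h2 : ∀ a, a ≠ 0 → ∃ a', a' ≠ 0 ∧ β (h0 M a) = h0 M a' := fun a ha =>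
    h0_eq M hA' hA cs ((hT _).2 (h0_mem_T M hA ha)) ((hM _).2 (h0_mem_MJ M cs a))
  have key : ∀ a a', a ≠ 0 → a' ≠ 0 → β (h0 M a) = h0 M a' → ∀ b, g (a * a * b) = a' * a' * g b := by
    intro a a' ha ha' e b
    apply x0_inj M
    rw [← hg, ← conj_h0 M hA' hA ha, map_mul, map_mul, map_inv, e, hg, conj_h0 M hA' hA ha']
  let θ0 : F → F := fun y => g y * c⁻¹
  have hsq : ∀ a a', a ≠ 0 → a' ≠ 0 → β (h0 M a) = h0 M a' → θ0 (a * a) = a' * a' := by
    intro a a' ha ha' e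
    have := key a a' ha ha' e 1
    rw [mul_one] at this
    change g (a * a) * c⁻¹ = _
    rw [this, ← hc]
    field_simp
  have hmul : ∀ y b, θ0 (y * b) = θ0 y * θ0 b := by
    intro y b
    rcases eq_or_ne y 0 with rfl | hy
    · change g (0 * b) * c⁻¹ = g 0 * c⁻¹ * (g b * c⁻¹)
      rw [zero_mul, g0, zero_mul, zero_mul]
    · obtain ⟨a, rfl⟩ := FiniteField.isSquare_of_char_two (ringChar.eq F 2 ▸ rfl) y
      have ha : a ≠ 0 := left_ne_zero_of_mul hy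
      obtain ⟨a', ha', e⟩ := h2 a ha
      rw [hsq a a' ha ha' e]
      change g (a * a * b) * c⁻¹ = a' * a' * (g b * c⁻¹)
      rw [key a a' ha ha' e b]
      ring
  let Θ : F →+* F :=
    { toFun := θ0
      map_one' := by
        change g 1 * c⁻¹ = 1
        rw [← hc, mul_inv_cancel₀ hc0]
      map_mul' := hmul
      map_zero' := by
        change g 0 * c⁻¹ = 0
        rw [g0, zero_mul]
      map_add' := fun a b => by
        change g (a + b) * c⁻¹ = g a * c⁻¹ + g b * c⁻¹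
        rw [gadd, add_mul] }
  have hΘ : Function.Bijective Θ := ⟨Θ.injective, Finite.surjective_of_injective Θ.injective⟩
  refine ⟨RingEquiv.ofBijective Θ hΘ, fun a ha => ?_⟩
  obtain ⟨a', ha', e⟩ := h2 a ha
  rw [e]
  congr 1
  have h3 := hsq a a' ha ha' e
  rw [hmul] at h3
  exact (sq_inj h3).symm

/-- the order of the field automorphism -/
theorem pow_theta [CharP F 2] (hA' : Amb Fr M.I) (hA : WittAll.AmbT Fr p M.I) {β : MulAut K} {θ : F ≃+* F}
    (h : ∀ a, a ≠ 0 → β (h0 M a) = h0 M (θ a)) {m : ℕ} (hm : β ^ m = 1) : θ ^ m = 1 := by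
  have key : ∀ k : ℕ, ∀ a, a ≠ 0 → (β ^ k) (h0 M a) = h0 M ((θ ^ k) a) := by
    intro k
    induction k with
    | zero => intro a _; rfl
    | succ k ih =>
      intro a ha
      rw [pow_succ, MulAut.mul_apply, h a ha, ih _ ((map_ne_zero θ).2 ha), pow_succ]
      rfl
  apply RingEquiv.ext
  intro a
  rcases eq_or_ne a 0 with rfl | ha
  · rw [map_zero, map_zero]
  · have h1 := key m a ha
    rw [hm] at h1
    have h2 : (θ ^ m) a ≠ 0 := (map_ne_zero (θ ^ m)).2 ha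
    exact (h0_inj M hA' hA ha h2 h1).symm

end Cfsg.Agent.H122.K547
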