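import Cfsg.Agent.H122.K547.Last
import Cfsg.Agent.H151.K4.PSU45

/-!
# Witt frames of `PSU₄(q)`, `PSU₅(q)` (helper122, S4547 task QE12)

* `inj_four`, `inj_five` : `φ z = 1` and `z = 1` on `V0` imply `z = 1`;
* `det_five` : determinants over the field with four elements;
* `adm_five` : `q² < |Adm|`.
-/

set_option autoImplicit false
set_option linter.unusedSectionVars false

open Cfsg

namespace Cfsg.Agent.H122.K547

open Cfsg.Agent.LieClassical.HermBasic Cfsg.Agent.LieClassical.HermSiegel Cfsg.Agent.LieClassical.SUBasic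
open Cfsg.Agent.TitsThree Cfsg.Agent.TitsThree.Siegel Cfsg.Agent.TitsThree.SiegelGen
  Cfsg.Agent.TitsThree.WittFrame Cfsg.Agent.TitsThree.WBridge Cfsg.Agent.TitsThree.FrameCN
  Cfsg.Agent.TitsThree.KSideU Cfsg.Agent.TitsThree.KSideUDesc

variable {F : Type} [Field F] [Fintype F] {q : ℕ}

/-- elements of `SU` have determinant one -/
theorem det_IU {N : ℕ} {g : (Fin N → F) ≃ₗ[F] (Fin N → F)} (hg : g ∈ IU F q N) :
    LinearMap.det (g : (Fin N → F) →ₗ[F] (Fin N → F)) = 1 := by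
  obtain ⟨A, rfl⟩ := hg
  have h1 : ((toLin F q N A : (Fin N → F) ≃ₗ[F] (Fin N → F)) : (Fin N → F) →ₗ[F] (Fin N → F)) =
      Matrix.toLin' (mat A) := by
    apply LinearMap.ext
    intro v
    rw [Matrix.toLin'_apply]
    rfl
  rw [h1, LinearMap.det_toLin']
  exact A.1.2

theorem inj_four [CharP F 2] (hF : Fintype.card F = q ^ 2) (z : (Fin 4 → F) ≃ₗ[F] (Fin 4 → F)) (hz : z ∈ IU F q 4)
    (h1 : toPSU F q 4 ⟨z, hz⟩ = 1) : z = 1 := by
  obtain ⟨c, hc⟩ := scalar_of_toPSU_eq_one hF (by norm_num) ⟨z, hz⟩ h1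
  have h2 := det_IU hz
  have h3 : (z : (Fin 4 → F) →ₗ[F] (Fin 4 → F)) = c • LinearMap.id := LinearMap.ext fun v => hc v
  rw [h3, LinearMap.det_smul, LinearMap.det_id, mul_one, Module.finrank_fintype_fun_eq_card, Fintype.card_fin] at h2
  have h4 : c = 1 := by
    have h5 : (c - 1) ^ 4 = 0 := by
      have h6 : (c - 1) ^ 2 ^ 2 = c ^ 2 ^ 2 - 1 ^ 2 ^ 2 := sub_pow_char_pow c 1 2
      have h7 : (c - 1) ^ 4 = c ^ 4 - 1 ^ 4 := h6
      rw [h7, h2, one_pow, sub_self]
    exact sub_eq_zero.1 (pow_eq_zero_iff (by norm_num) |>.1 h5)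
  apply LinearEquiv.ext
  intro v
  have h5 := hc v
  rw [h4, one_smul] at h5
  exact h5

theorem inj_five (hF : Fintype.card F = q ^ 2) {d : Fin 5 → F} (hd : d ≠ 0) (z : (Fin 5 → F) ≃ₗ[F] (Fin 5 → F))
    (hz : z ∈ IU F q 5) (h1 : toPSU F q 5 ⟨z, hz⟩ = 1) (hzd : z d = d) : z = 1 := by
  obtain ⟨c, hc⟩ := scalar_of_toPSU_eq_one hF (by norm_num) ⟨z, hz⟩ h1
  have h2 : z d = c • d := hc d
  have h3 : c = 1 := by
    rw [hzd] at h2
    have h4 : (c - 1) • d = 0 := by rw [sub_smul, ← h2, one_smul, sub_self]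
    exact sub_eq_zero.1 ((smul_eq_zero.1 h4).resolve_right hd)
  apply LinearEquiv.ext
  intro v
  have h5 := hc v
  rw [h3, one_smul] at h5
  exact h5

/-- **Determinants.** -/
theorem det_five (hF : Fintype.card F = q ^ 2) (hq : q = 2) (W : WFrame (PU hF 5) 2) {d : Fin 5 → F}
    (hW : W.V0 = Submodule.span F {d}) {m : (Fin 5 → F) ≃ₗ[F] (Fin 5 → F)} (hm : m ∈ IU F q 5) {a c : F}
    (h0 : ∀ s, m ((toFrame W).b (0, s)) = (toFrame W).b (0, s))
    (h1 : m ((toFrame W).b (1, true)) = a • (toFrame W).b (1, true))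
    (h2 : m ((toFrame W).b (1, false)) = a • (toFrame W).b (1, false)) (hd : m d = c • d) : m d = a • d := by
  have e0 : m (W.e 0) = W.e 0 := h0 true
  have f0 : m (W.f 0) = W.f 0 := h0 false
  have e1 : m (W.e 1) = a • W.e 1 := h1
  have f1 : m (W.f 1) = a • W.f 1 := h2
  let v : Fin 5 → (Fin 5 → F) := ![W.e 0, W.f 0, W.e 1, W.f 1, d]
  let l : Fin 5 → F := ![1, 1, a, a, c]
  have hspan : (⊤ : Submodule F (Fin 5 → F)) ≤ Submodule.span F (Set.range v) := by
    intro x _
    obtain ⟨p, r, w, hw, rfl⟩ := W.span x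
    rw [hW] at hw
    obtain ⟨t, rfl⟩ := Submodule.mem_span_singleton.1 hw
    have hv : ∀ i, v i ∈ Submodule.span F (Set.range v) := fun i => Submodule.subset_span ⟨i, rfl⟩
    rw [Fin.sum_univ_two, Fin.sum_univ_two]
    exact add_mem (add_mem (add_mem (Submodule.smul_mem _ _ (hv 0)) (Submodule.smul_mem _ _ (hv 2)))
      (add_mem (Submodule.smul_mem _ _ (hv 1)) (Submodule.smul_mem _ _ (hv 3)))) (Submodule.smul_mem _ _ (hv 4))
  let B := basisOfTopLeSpanOfCardEqFinrank v hspan (by rw [Module.finrank_fintype_fun_eq_card])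
  have hB : ∀ i, B i = v i := fun i => by
    rw [coe_basisOfTopLeSpanOfCardEqFinrank]
  have hmv : ∀ i, m (v i) = l i • v i := by
    intro i
    fin_cases i
    · exact e0.trans (one_smul _ _).symm
    · exact f0.trans (one_smul _ _).symm
    · exact e1
    · exact f1
    · exact hd
  have hdet := det_IU hm
  have hmat : LinearMap.toMatrix B B (m : (Fin 5 → F) →ₗ[F] (Fin 5 → F)) = Matrix.diagonal l := by
    ext i j
    rw [LinearMap.toMatrix_apply]
    have h3 : (m : (Fin 5 → F) →ₗ[F] (Fin 5 → F)) (B j) = l j • B j := by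
      rw [hB]
      exact hmv j
    rw [h3, map_smul, Module.Basis.repr_self, Finsupp.smul_apply, Finsupp.single_apply, Matrix.diagonal_apply]
    by_cases hij : i = j
    · subst hij
      simp
    · rw [if_neg hij, if_neg (Ne.symm hij), smul_zero]
  rw [← LinearMap.det_toMatrix B, hmat, Matrix.det_diagonal, Fin.prod_univ_five] at hdet
  have h5 : a * a * c = 1 := by
    have h6 : (1 : F) * 1 * a * a * c = 1 := hdet
    rw [one_mul, one_mul] at h6
    exact h6
  have ha : a ≠ 0 := by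
    rintro rfl
    rw [zero_mul, zero_mul] at h5
    exact zero_ne_one h5
  have h6 : a * a * a = 1 := by
    have h7 := FiniteField.pow_card_sub_one_eq_one a ha
    rw [hF, hq] at h7
    have h8 : a ^ 3 = 1 := h7
    rw [← h8]
    ring
  have h7 : c = a := by
    have h8 : a * a ≠ 0 := mul_ne_zero ha ha
    exact mul_left_cancel₀ h8 (h5.trans h6.symm)
  rw [hd, h7]

/-- **Admissible pairs.** -/
theorem adm_five {N m : ℕ} (hF : Fintype.card F = q ^ 2) (W : WFrame (PU hF N) m) {d : Fin N → F} (hd : d ≠ 0)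
    (hW : W.V0 = Submodule.span F {d}) [Finite (toFrame W).Adm] : Nat.card F < Nat.card (toFrame W).Adm := by
  classical
  obtain ⟨p0, hp0, hpw⟩ := Nodes.WittU.exists_adm hF W
  have hv0 : d ∈ W.V0 := by
    rw [hW]
    exact Submodule.mem_span_singleton_self d
  have hex : ∀ t : F, ∃ a : (toFrame W).Adm, a.w = t • d ∧ (t = 0 → a.c = 0) := by
    intro t
    by_cases ht : t = 0
    · subst ht
      exact ⟨1, by rw [Frame.Adm.one_w, zero_smul], fun _ => Frame.Adm.one_c⟩
    · obtain ⟨c, hc⟩ := (PU hF N).ex (t • d)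
      exact ⟨⟨t • d, c, W.V0.smul_mem t hv0, hc⟩, rfl, fun h => absurd h ht⟩
  choose g hg hg0 using hex
  have hinj : Function.Injective g := by
    intro s t hst
    have h1 := congrArg Frame.Adm.w hst
    rw [hg, hg] at h1
    have h4 : (s - t) • d = 0 := by rw [sub_smul, h1, sub_self]
    exact sub_eq_zero.1 ((smul_eq_zero.1 h4).resolve_right hd)
  refine lt_of_le_of_ne (Nat.card_le_card_of_injective g hinj) fun hc => ?_
  obtain ⟨t, ht⟩ := (hinj.bijective_of_nat_card_le hc.ge).2 p0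
  have h1 : t = 0 := by
    have h2 := congrArg Frame.Adm.w ht
    rw [hg, hpw] at h2
    exact (smul_eq_zero.1 h2).resolve_right hd
  apply hp0
  rw [← ht]
  exact hg0 t h1

end Cfsg.Agent.H122.K547
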